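import Cfsg.Agent.H240.Rg.SzChar
import Cfsg.Agent.H316.HT.Defs
import Cfsg.Agent.H438.SzMax
import Cfsg.Agent.S1162

/-!
# S4933, box R3: the degrees of a Sylow 2-subgroup of `Sz(q)` (helper748)

* `deg_unip`    : a nonlinear character degree `d` of `U` with `q ≤ 2 d²`;
* `le_of_CD`    : `CD 2 a P` gives `m ≤ a` for a Sylow 2-subgroup `P` of a group isomorphic to `Sz(2^(2m+1))`.
-/

set_option autoImplicit false

open Cfsg Cfsg.Agent.Characters.Core ComplexConjugate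

namespace Cfsg.Agent.H748.HT

open Cfsg.Agent.H240.Rg Cfsg.Agent.LieRecognition.SzMatrix Cfsg.Agent.H316.HT

section sz

variable {F : Type*} [Field F] {θ : F →+* F} {e : ℕ}

theorem deg_unip [Finite F] (H : Good F θ e) {χ : ↥(Cfsg.Lie.Sz F e) → ℂ}
    (hχ : IsIrrCharacter ↥(Cfsg.Lie.Sz F e) χ) (hne : χ 1 ≠ χ (H.u 0 1)) :
    ∃ ψ : H.unip → ℂ, IsIrrCharacter H.unip ψ ∧ ∃ d : ℕ, ψ 1 = d ∧ Nat.card F ≤ 2 * d ^ 2 := by
  classical
  have : Finite (GL (Fin 4) F) := inferInstance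
  have := Fintype.ofFinite F
  let h : Multiplicative F →* H.unip :=
    { toFun := fun a => ⟨H.u 0 (Multiplicative.toAdd a), H.u_mem_unip _ _⟩
      map_one' := Subtype.ext H.u_zero
      map_mul' := fun a b => Subtype.ext (by
        show H.u 0 (Multiplicative.toAdd a + Multiplicative.toAdd b) =
          H.u 0 (Multiplicative.toAdd a) * H.u 0 (Multiplicative.toAdd b)
        rw [H.u_mul]
        congr 1 <;> simp) }
  obtain ⟨ψ, l, d, k, hψ, hl, hψl, hd, hdk, hk⟩ := exists_const H.unip.subtype h (fun a => by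
      rw [Subgroup.mem_center_iff]
      intro g
      obtain ⟨b, c, hbc⟩ := (H.mem_unip_iff _).1 g.2
      apply Subtype.ext
      show (g : ↥(Cfsg.Lie.Sz F e)) * H.u 0 _ = H.u 0 _ * g
      rw [hbc, u0_comm]) hχ (t := χ (H.u 0 1)) (fun a ha => by
      obtain ⟨g, hg⟩ := isConj_iff.1 (u0_isConj H (one_ne_zero (α := F)) ha)
      show χ (H.u 0 a) = _
      rw [← hg]
      exact isIrr_isClassFunction hχ _ _) hne
  refine ⟨ψ, hψ, d, hd, ?_⟩
  obtain ⟨s, hs⟩ := exists_bad H hl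
  have hcl := isIrr_isClassFunction hψ
  have hz : ∀ a b : F, a ≠ 0 → a ≠ s → ψ ⟨H.u a b, H.u_mem_unip a b⟩ = 0 := by
    intro a b ha has
    obtain ⟨c, hc⟩ := hs a ha has
    have h1 := hcl ⟨H.u a b, H.u_mem_unip a b⟩ ⟨H.u c 0, H.u_mem_unip c 0⟩
    have h2 : (⟨H.u c 0, H.u_mem_unip c 0⟩ * ⟨H.u a b, H.u_mem_unip a b⟩ * (⟨H.u c 0, H.u_mem_unip c 0⟩)⁻¹ : H.unip) =
        ⟨H.u a b, H.u_mem_unip a b⟩ * h (Multiplicative.ofAdd (c * θ a + a * θ c)) := Subtype.ext (u_conj H a b c)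
    rw [h2, hψl] at h1
    have h3 : (l (c * θ a + a * θ c) - 1) * ψ ⟨H.u a b, H.u_mem_unip a b⟩ = 0 := by rw [sub_mul, h1, one_mul, sub_self]
    rcases mul_eq_zero.1 h3 with h4 | h4
    · exact absurd (sub_eq_zero.1 h4) hc
    · exact h4
  have : Fintype H.unip := Fintype.ofFinite _
  have hsum := CharDeep.DegreeBound.sum_sq_irr hψ
  have hle : ∀ x : H.unip, ‖ψ x‖ ≤ d := by
    intro x
    obtain ⟨n, ρ, hρ, rfl⟩ := hψ
    have h1 := Characters.Values.norm_character_le ρ x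
    have h2 : (d : ℂ) = Module.finrank ℂ (Fin n → ℂ) := by
      rw [← hd, Representation.char_one]
    have h3 : d = Module.finrank ℂ (Fin n → ℂ) := by exact_mod_cast h2
    rwa [h3]
  have hsum2 : ∑ x : H.unip, ‖ψ x‖ ^ 2 = ∑ p : F × F, ‖ψ ⟨H.u p.1 p.2, H.u_mem_unip p.1 p.2⟩‖ ^ 2 :=
    (Fintype.sum_equiv H.unipEquiv _ _ fun p => rfl).symm
  have hbound : ∑ p : F × F, ‖ψ ⟨H.u p.1 p.2, H.u_mem_unip p.1 p.2⟩‖ ^ 2 ≤ 2 * Nat.card F * (d : ℝ) ^ 2 := by
    rw [Fintype.sum_prod_type]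
    calc ∑ a : F, ∑ b : F, ‖ψ ⟨H.u a b, H.u_mem_unip a b⟩‖ ^ 2
        ≤ ∑ a : F, if a = 0 ∨ a = s then Nat.card F * (d : ℝ) ^ 2 else 0 := by
          refine Finset.sum_le_sum fun a _ => ?_
          split_ifs with ha
          · calc ∑ b : F, ‖ψ ⟨H.u a b, H.u_mem_unip a b⟩‖ ^ 2 ≤ ∑ _b : F, (d : ℝ) ^ 2 :=
                  Finset.sum_le_sum fun b _ => pow_le_pow_left₀ (norm_nonneg _) (hle _) 2
              _ = _ := by rw [Finset.sum_const, Finset.card_univ, nsmul_eq_mul, Nat.card_eq_fintype_card]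
          · push Not at ha
            refine le_of_eq (Finset.sum_eq_zero fun b _ => ?_)
            rw [hz a b ha.1 ha.2, norm_zero]
            norm_num
      _ ≤ ∑ a ∈ ({0, s} : Finset F), Nat.card F * (d : ℝ) ^ 2 := by
          rw [← Finset.sum_filter]
          refine Finset.sum_le_sum_of_subset_of_nonneg (fun a ha => ?_) fun _ _ _ => by positivity
          simpa using ha
      _ ≤ _ := by
          rw [Finset.sum_const, nsmul_eq_mul]
          have : ((({0, s} : Finset F).card : ℕ) : ℝ) ≤ 2 := by exact_mod_cast Finset.card_le_two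
          have h0 : (0 : ℝ) ≤ Nat.card F * (d : ℝ) ^ 2 := by positivity
          nlinarith
  have hfin : (Nat.card F : ℝ) ^ 2 ≤ 2 * Nat.card F * (d : ℝ) ^ 2 := by
    calc (Nat.card F : ℝ) ^ 2 = (Nat.card H.unip : ℝ) := by rw [H.card_unip]; push_cast; rfl
      _ = _ := hsum.symm
      _ = _ := hsum2
      _ ≤ _ := hbound
  have hq : (0 : ℝ) < Nat.card F := by exact_mod_cast Nat.card_pos
  have : (Nat.card F : ℝ) ≤ 2 * (d : ℝ) ^ 2 := by
    by_contra hcon
    push Not at hcon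
    nlinarith
  exact_mod_cast this

end sz

theorem char_faithful {T : Type*} [Group T] [Finite T] [IsSimpleGroup T] {χ : T → ℂ} (hχ : IsIrrCharacter T χ)
    (h1 : χ 1 ≠ 1) {z : T} (hz : z ≠ 1) : χ 1 ≠ χ z := by
  classical
  have := Fintype.ofFinite T
  intro h
  rcases (inferInstance : (H686.CharKit.chKer (⟨χ, hχ⟩ : IrrCharacter T)).Normal).eq_bot_or_eq_top with h2 | h2
  · exact hz ((Subgroup.eq_bot_iff_forall _).1 h2 z h.symm)
  · have h3 : ∀ g, χ g = χ 1 := fun g => by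
      have : g ∈ H686.CharKit.chKer (⟨χ, hχ⟩ : IrrCharacter T) := h2 ▸ Subgroup.mem_top g
      exact this
    obtain ⟨n, hn0, hn⟩ := isIrr_apply_one hχ
    have h4 := classInner_irr_self hχ
    rw [classInner_def, Finset.sum_congr rfl fun g _ => by rw [h3 g, hn], Finset.sum_const, Finset.card_univ,
      ← Nat.card_eq_fintype_card, nsmul_eq_mul, ← mul_assoc, inv_mul_cancel₀ card_ne_zero_complex, one_mul,
      Complex.conj_natCast] at h4
    have h5 : n * n = 1 := by exact_mod_cast h4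
    have h6 : n = 1 := Nat.eq_one_of_mul_eq_one_left h5
    exact h1 (by rw [hn, h6, Nat.cast_one])

/-- `CD` is invariant under isomorphism -/
theorem CD.congr {p a : ℕ} {P : Type*} {Q : Type*} [Group P] [Group Q] (e : P ≃* Q) (h : CD p a P) : CD p a Q := by
  refine ⟨fun φ => ?_, ?_⟩
  · have h1 := h.1 ⟨(φ : Q → ℂ) ∘ e, isIrr_comp e.toMonoidHom e.surjective φ.2⟩
    have h2 : charDegree ((φ : Q → ℂ) ∘ e) = charDegree (φ : Q → ℂ) := by
      unfold charDegree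
      simp
    rw [← h2]
    exact h1
  · obtain ⟨φ, hφ⟩ := h.2
    refine ⟨⟨(φ : P → ℂ) ∘ e.symm, isIrr_comp e.symm.toMonoidHom e.symm.surjective φ.2⟩, ?_⟩
    rw [← hφ]
    unfold charDegree
    simp

/-- the lower bound for `a` -/
theorem le_of_CD {F : Type*} [Field F] [Fintype F] {m : ℕ} (hm : 1 ≤ m) (hF : Fintype.card F = 2 ^ (2 * m + 1))
    {K : Type*} [Group K] [Finite K] (e : K ≃* ↥(Cfsg.Lie.Sz F (2 ^ (m + 1)))) (P : Sylow 2 K) {a : ℕ}
    (h : CD 2 a (P : Subgroup K)) {χ : ↥(Cfsg.Lie.Sz F (2 ^ (m + 1))) → ℂ} (hχ : IsIrrCharacter _ χ)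
    (hχ1 : χ 1 ≠ 1) : m ≤ a := by
  classical
  have := Cfsg.Agent.S1162.result hm hF
  have H := good hF
  have hu1 : H.u 0 1 ≠ 1 := by
    rw [← H.u_zero]
    intro h
    exact one_ne_zero (H.u_inj h).2
  have hne := char_faithful hχ hχ1 hu1
  obtain ⟨ψ, hψ, d, hd, hq⟩ := deg_unip H hχ hne
  have hp : Fact (Nat.Prime 2) := ⟨Nat.prime_two⟩
  -- the Sylow subgroup
  have hU : ∃ Q : Sylow 2 ↥(Cfsg.Lie.Sz F (2 ^ (m + 1))), (Q : Subgroup _) = H.unip := by
    have hcU : Nat.card H.unip = 2 ^ (2 * (2 * m + 1)) := by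
      rw [H.card_unip, Nat.card_eq_fintype_card, hF, ← pow_mul, mul_comm]
    refine ⟨Sylow.ofCard H.unip ?_, rfl⟩
    rw [hcU]
    congr 1
    rw [H438.SzMax.card_sz hF, ← pow_mul, mul_assoc, Nat.factorization_mul, Nat.Prime.factorization_pow Nat.prime_two]
    · have h1 : ¬ 2 ∣ (2 ^ (2 * m + 1) - 1) * (2 ^ ((2 * m + 1) * 2) + 1) := by
        have e1 : 2 ^ (2 * m + 1) = 2 * 2 ^ (2 * m) := by rw [pow_succ, mul_comm]
        have e2 : 2 ^ ((2 * m + 1) * 2) = 2 * 2 ^ (4 * m + 1) := by rw [← pow_succ']; congr 1; ring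
        have e3 : 0 < 2 ^ (2 * m) := by positivity
        intro hd
        rcases (Nat.Prime.dvd_mul Nat.prime_two).1 hd with h3 | h3 <;> omega
      rw [Finsupp.add_apply, Nat.factorization_eq_zero_of_not_dvd h1]
      simp [mul_comm]
    · positivity
    · have e1 : 2 ^ (2 * m + 1) = 2 * 2 ^ (2 * m) := by rw [pow_succ, mul_comm]
      have e3 : 0 < 2 ^ (2 * m) := by positivity
      have e4 : 0 < 2 ^ (2 * m + 1) - 1 := by omega
      positivity
  obtain ⟨Q, hQ⟩ := hU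
  obtain ⟨e1⟩ : Nonempty ((P : Subgroup K) ≃* H.unip) := by
    let P' : Sylow 2 ↥(Cfsg.Lie.Sz F (2 ^ (m + 1))) := P.mapSurjective (f := e.toMonoidHom) e.surjective
    have h2 : (P' : Subgroup ↥(Cfsg.Lie.Sz F (2 ^ (m + 1)))) = (P : Subgroup K).map e.toMonoidHom := rfl
    have e2 : (P : Subgroup K) ≃* (P' : Subgroup ↥(Cfsg.Lie.Sz F (2 ^ (m + 1)))) := by
      rw [h2]
      exact (P : Subgroup K).equivMapOfInjective e.toMonoidHom e.injective
    rw [← hQ]
    exact ⟨e2.trans (Sylow.equiv P' Q)⟩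
  have h1 := (CD.congr e1 h).1 ⟨ψ, hψ⟩
  have h2 : charDegree ψ = d := by
    unfold charDegree
    rw [hd]; simp
  have h3 : charDegree ((⟨ψ, hψ⟩ : IrrCharacter H.unip) : H.unip → ℂ) = d := h2
  rw [h3] at h1
  rw [Nat.card_eq_fintype_card, hF] at hq
  have h8 : 2 ^ 3 ≤ 2 ^ (2 * m + 1) := Nat.pow_le_pow_right (by norm_num) (by omega)
  rcases h1 with h1 | h1
  · subst h1
    norm_num at hq h8
    omega
  · subst h1
    rw [← pow_mul, ← pow_succ'] at hq
    have := (Nat.pow_le_pow_iff_right (by norm_num : 1 < 2)).1 hq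
    omega

end Cfsg.Agent.H748.HT
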